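import Cfsg.Agent.Lib.Glauberman.Coset
import Cfsg.Agent.Lib.Glauberman.Coprime
import Cfsg.Agent.Lib.Glauberman.Subgroup
import Cfsg.Agent.Lib.CharGalois
import Cfsg.Agent.Lib.CharClifford.CoprimeClasses
import Cfsg.Agent.Lib.Coprime.Action
import Cfsg.Agent.S0867

/-!
# A cyclic group acting coprimely: canonical extensions and their values
-/

set_option autoImplicit false
set_option linter.unusedSectionVars false
set_option linter.style.haveILetI false

namespace Cfsg.Agent.Lib.Glauberman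

open Cfsg Cfsg.Agent.Lib.Char
open scoped ComplexConjugate Classical

universe u

theorem detOrder_aut {X : Type u} [Group X] [Finite X] (σ : ℂ ≃+* ℂ) {χ : X → ℂ}
    (hχ : IsIrrCharacter X χ) : detOrder (fun g => σ (χ g)) = detOrder χ := by
  obtain ⟨n, ρ, hρ, rfl⟩ := hχ
  haveI := hρ
  let T : (Matrix (Fin n) (Fin n) ℂ) →+* Matrix (Fin n) (Fin n) ℂ := (σ : ℂ →+* ℂ).mapMatrix
  let R : Representation ℂ X (Fin n → ℂ) :=
    { toFun := fun g => Matrix.toLin' (T (LinearMap.toMatrix' (ρ g)))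
      map_one' := by simp [map_one, Module.End.one_eq_id]
      map_mul' := fun a b => by
        rw [map_mul, LinearMap.toMatrix'_mul, map_mul, Matrix.toLin'_mul]
        rfl }
  have hR : R.character = fun g => σ (ρ.character g) := funext fun g => by
    show LinearMap.trace ℂ _ (Matrix.toLin' (T (LinearMap.toMatrix' (ρ g)))) = σ (ρ.character g)
    rw [Matrix.trace_toLin'_eq, Representation.character,
      LinearMap.trace_eq_matrix_trace ℂ (Pi.basisFun ℂ (Fin n)), LinearMap.toMatrix_eq_toMatrix']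
    simp [Matrix.trace, T]
  haveI : R.IsIrreducible := CharClifford.isIrreducible_of_isIrrCharacter R (by
    rw [hR]; exact CharGalois.isIrrCharacter_aut σ (isIrrCharacter_character ρ))
  have hd : detChar (fun g => σ (ρ.character g)) =
      (σ.toRingHom.toMonoidHom.compLeft X) (detChar ρ.character) := by
    rw [← hR, CharClifford.detChar_character R, CharClifford.detChar_character ρ]
    funext g
    show LinearMap.det (Matrix.toLin' (T (LinearMap.toMatrix' (ρ g)))) = σ (LinearMap.det (ρ g))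
    rw [LinearMap.det_toLin', ← LinearMap.det_toMatrix']
    exact (RingHom.map_det (σ : ℂ →+* ℂ) (LinearMap.toMatrix' (ρ g))).symm
  rw [detOrder, detOrder, hd, orderOf_injective]
  exact fun f g h => funext fun x => σ.injective (congrFun h x)

theorem detOrder_dvd_card {X : Type u} [Group X] [Finite X] {χ : X → ℂ}
    (hχ : IsIrrCharacter X χ) : detOrder χ ∣ Nat.card X := by
  obtain ⟨n, ρ, hρ, -, -, hdet⟩ := CharClifford.exists_detHom hχ
  rw [detOrder]
  refine orderOf_dvd_of_pow_eq_one (funext fun g => ?_)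
  rw [Pi.pow_apply, Pi.one_apply, hdet, ← Units.val_pow_eq_pow_val, ← map_pow, pow_card_eq_one',
    map_one, Units.val_one]

/-- The standing hypotheses. -/
structure CycSetup {Γ : Type u} [Group Γ] (G S C : Subgroup Γ) : Prop where
  norm : ∀ s ∈ S, ∀ g ∈ G, s * g * s⁻¹ ∈ G
  cop : (Nat.card G).Coprime (Nat.card S)
  top : G ⊔ S = ⊤
  cyc : IsCyclic S
  hC : C = G ⊓ Subgroup.centralizer (S : Set Γ)

/-- Invariance under conjugation by `S`, as the statements spell it. -/
def SInv {Γ : Type u} [Group Γ] (G S : Subgroup Γ) (θ : G → ℂ) : Prop :=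
  ∀ s ∈ S, ∀ g g' : G, (g' : Γ) = s * g * s⁻¹ → θ g' = θ g

namespace CycSetup

variable {Γ : Type u} [Group Γ] [Finite Γ] {G S C : Subgroup Γ} (H : CycSetup G S C)

include H

theorem le : C ≤ G := H.hC.trans_le inf_le_left

theorem normal : G.Normal := by
  rw [← Subgroup.normalizer_eq_top_iff, eq_top_iff, ← H.top, sup_le_iff]
  refine ⟨Subgroup.le_normalizer, fun s hs => Subgroup.mem_normalizer_iff.mpr fun g =>
    ⟨fun hg => H.norm s hs g hg, fun hg => ?_⟩⟩
  have := H.norm s⁻¹ (S.inv_mem hs) _ hg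
  rwa [show s⁻¹ * (s * g * s⁻¹) * s⁻¹⁻¹ = g by group] at this

theorem index_eq : G.index = Nat.card S := by
  have := H.normal
  have e := Coprime.card_sup_mul_card_inf_of_le_normalizer (A := S) (N := G)
    (Subgroup.normalizer_eq_top (H := G) ▸ le_top)
  rw [sup_comm, H.top, Coprime.inf_eq_bot_of_coprime H.cop.symm, Subgroup.card_bot, mul_one,
    Subgroup.card_top, ← G.card_mul_index, mul_comm (Nat.card S)] at e
  exact Nat.eq_of_mul_eq_mul_left Nat.card_pos e

theorem cyclic_quotient [G.Normal] : IsCyclic (Γ ⧸ G) := by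
  haveI := H.cyc
  refine isCyclic_of_surjective ((QuotientGroup.mk' G).comp S.subtype) fun x => ?_
  obtain ⟨g, rfl⟩ := QuotientGroup.mk'_surjective G x
  obtain ⟨s, hs, n, hn, rfl⟩ := (Coprime.mem_sup_of_le_normalizer
    (Subgroup.normalizer_eq_top (H := G) ▸ le_top : S ≤ _)).mp
      (sup_comm G S ▸ H.top ▸ Subgroup.mem_top g)
  exact ⟨⟨s, hs⟩, by simp [(QuotientGroup.eq_one_iff n).mpr hn]⟩

theorem mem_C {c : Γ} : c ∈ C ↔ c ∈ G ∧ ∀ s ∈ S, s * c = c * s := by
  rw [H.hC, Subgroup.mem_inf, Subgroup.mem_centralizer_iff]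
  rfl

theorem commute {c : Γ} (hc : c ∈ C) {s : Γ} (hs : s ∈ S) : Commute c s :=
  ((H.mem_C.mp hc).2 s hs).symm

theorem gen_pow {t s : Γ} (ht : Subgroup.zpowers t = S) (hs : Subgroup.zpowers s = S) :
    ∃ k : ℕ, Nat.Coprime k (Nat.card S) ∧ t ^ k = s := by
  obtain ⟨k, rfl⟩ := mem_powers_iff_mem_zpowers.mpr (ht ▸ hs ▸ Subgroup.mem_zpowers s)
  refine ⟨k, ?_, rfl⟩
  have h1 : orderOf (t ^ k) = orderOf t := by rw [← Nat.card_zpowers, ← Nat.card_zpowers, hs, ht]
  rw [orderOf_pow] at h1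
  have h2 : Nat.gcd (orderOf t) k = 1 := by
    have := Nat.div_mul_cancel (Nat.gcd_dvd_left (orderOf t) k)
    rw [h1] at this
    exact Nat.eq_of_mul_eq_mul_left (orderOf_pos t) (this.trans (mul_one _).symm)
  rw [← ht, Nat.card_zpowers, Nat.coprime_comm]
  exact h2

theorem sinv_of_ext {χ : G → ℂ} {α : Γ → ℂ} (hα : IsClassFunction Γ α)
    (hext : ∀ g : G, α g = χ g) : SInv G S χ := fun s _ g g' e => by
  rw [← hext, ← hext, e]; exact hα _ _

theorem exists_canonical {χ : G → ℂ} (hχ : IsIrrCharacter G χ) (hinv : SInv G S χ) :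
    ∃ α : Γ → ℂ, IsIrrCharacter Γ α ∧ (∀ g : G, α g = χ g) ∧ (detOrder α).Coprime (Nat.card S) := by
  have hGn := H.normal
  have hI : ∀ (g : Γ) (n : G), χ ⟨g * n * g⁻¹, hGn.conj_mem (n : Γ) n.2 g⟩ = χ n := by
    intro g n
    obtain ⟨s, hs, m, hm, rfl⟩ := (Coprime.mem_sup_of_le_normalizer
      (Subgroup.normalizer_eq_top (H := G) ▸ le_top : S ≤ _)).mp
        (sup_comm G S ▸ H.top ▸ Subgroup.mem_top g)
    rw [hinv s hs (⟨m, hm⟩ * n * (⟨m, hm⟩ : G)⁻¹) ⟨_, hGn.conj_mem n n.2 (s * m)⟩ (by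
      simp [mul_assoc])]
    exact isClassFunction_of_isIrr hχ n ⟨m, hm⟩
  have hd := apply_one_eq_charDegree (isCharacter_of_isIrr hχ)
  obtain ⟨α, ⟨hα, hext, hdet⟩, -⟩ := S0867.result G χ hχ hI (charDegree χ) hd (by
    rw [H.index_eq]
    exact Nat.Coprime.mul_right (H.cop.symm.coprime_dvd_right (detOrder_dvd_card hχ))
      (H.cop.symm.coprime_dvd_right (charDegree_dvd_card hχ)))
  exact ⟨α, hα, hext, hdet ▸ H.cop.coprime_dvd_left (detOrder_dvd_card hχ)⟩

theorem ext_unique {χ : G → ℂ} (hχ : IsIrrCharacter G χ) {α β : Γ → ℂ}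
    (hα : IsIrrCharacter Γ α) (hβ : IsIrrCharacter Γ β) (ha : ∀ g : G, α g = χ g)
    (hb : ∀ g : G, β g = χ g) (hda : (detOrder α).Coprime (Nat.card S))
    (hdb : (detOrder β).Coprime (Nat.card S)) : α = β := by
  have := H.normal
  have hd := apply_one_eq_charDegree (isCharacter_of_isIrr hχ)
  obtain ⟨γ, -, huniq⟩ := S0867.result G χ hχ (fun g n => by
    rw [← ha, ← ha]; exact isClassFunction_of_isIrr hα _ _) (charDegree χ) hd (by
    rw [H.index_eq]
    exact Nat.Coprime.mul_right (H.cop.symm.coprime_dvd_right (detOrder_dvd_card hχ))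
      (H.cop.symm.coprime_dvd_right (charDegree_dvd_card hχ)))
  rw [huniq α hα ha (by rw [H.index_eq]; exact hda.symm),
    huniq β hβ hb (by rw [H.index_eq]; exact hdb.symm)]

/-- The canonical extension does not distinguish the generators. -/
theorem value_gen {χ : G → ℂ} (hχ : IsIrrCharacter G χ) {α : Γ → ℂ} (hα : IsIrrCharacter Γ α)
    (hext : ∀ g : G, α g = χ g) (hdet : (detOrder α).Coprime (Nat.card S)) {s : Γ}
    (hs : Subgroup.zpowers s = S) {k : ℕ} (hk : Nat.Coprime k (Nat.card S)) {c : Γ} (hc : c ∈ C) :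
    α (c * s ^ k) = α (c * s) := by
  have := H.normal
  obtain ⟨j, hj1, hj2⟩ := Nat.chineseRemainder H.cop 1 k
  have hjΓ : Nat.Coprime j (Nat.card Γ) := by
    rw [← G.card_mul_index, H.index_eq]
    refine Nat.Coprime.mul_right ?_ ?_
    · rw [Nat.coprime_iff_gcd_eq_one, hj1.gcd_eq, Nat.gcd_one_left]
    · rw [Nat.coprime_iff_gcd_eq_one, hj2.gcd_eq, ← Nat.coprime_iff_gcd_eq_one]; exact hk
  obtain ⟨σ, hσ⟩ := CharGalois.exists_aut_pow Nat.card_pos hjΓ
  have hval : ∀ g, σ (α g) = α (g ^ j) := CharGalois.aut_apply_char hσ (isCharacter_of_isIrr hα)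
  have hG : ∀ g : Γ, g ∈ G → g ^ j = g := fun g hg => by
    conv_rhs => rw [← pow_one g]
    rw [pow_eq_pow_iff_modEq]
    exact hj1.of_dvd (by rw [← Subgroup.orderOf_mk g hg]; exact orderOf_dvd_natCard _)
  have e := H.ext_unique hχ (CharGalois.isIrrCharacter_aut σ hα) hα
    (fun g => by rw [hval, hG g g.2, hext]) hext (by rwa [detOrder_aut σ hα]) hdet
  have hsS : s ∈ S := hs ▸ Subgroup.mem_zpowers s
  have h1 := congrFun e (c * s)
  rw [hval, (H.commute hc hsS).mul_pow, hG c (H.le hc)] at h1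
  rw [← h1]
  congr 2
  rw [pow_eq_pow_iff_modEq]
  exact (hj2.of_dvd (by rw [← Nat.card_zpowers, hs])).symm

/-- The conjugates of `C * s` cover `G * s` once, when `C` is the centraliser of `s` in `G`. -/
theorem sum_coset [Fintype G] [Fintype C] {s : Γ} (hs : s ∈ S)
    (hsC : ∀ g ∈ G, s * g = g * s → g ∈ C) (f : Γ → ℂ) (hf : IsClassFunction Γ f) :
    (Nat.card C : ℂ)⁻¹ * ∑ c : C, f (s * c) = (Nat.card G : ℂ)⁻¹ * ∑ g : G, f (s * g) := by
  have hGn := H.normal
  set C' := C.subgroupOf G with hC'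
  have := Fintype.ofFinite (G ⧸ C')
  let Φ : (G ⧸ C') × C → G := fun z =>
    ⟨s⁻¹ * (z.1.out : Γ) * s * ((z.2 : Γ) * (z.1.out : Γ)⁻¹), G.mul_mem
      (by simpa using hGn.conj_mem _ z.1.out.2 s⁻¹) (G.mul_mem (H.le z.2.2) (G.inv_mem z.1.out.2))⟩
  have hΦ : ∀ z, s * (Φ z : Γ) = (z.1.out : Γ) * (s * z.2) * (z.1.out : Γ)⁻¹ := fun z => by
    simp only [Φ]; group
  obtain ⟨e, he1, he2⟩ := Nat.chineseRemainder H.cop 0 1
  have hpow : ∀ c : C, (s * (c : Γ)) ^ e = s := fun c => by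
    rw [(H.commute c.2 hs).symm.mul_pow, show (c : Γ) ^ e = 1 from orderOf_dvd_iff_pow_eq_one.mp
      (((Subgroup.orderOf_mk (c : Γ) (H.le c.2)) ▸ orderOf_dvd_natCard _).trans
        (Nat.modEq_zero_iff_dvd.mp he1)), mul_one]
    conv_rhs => rw [← pow_one s]
    rw [pow_eq_pow_iff_modEq]
    exact he2.of_dvd (by rw [← Subgroup.orderOf_mk s hs]; exact orderOf_dvd_natCard _)
  have hinj : Function.Injective Φ := by
    rintro ⟨b, c⟩ ⟨b', c'⟩ h
    have h0 := congrArg (fun g : G => s * (g : Γ)) h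
    simp only [hΦ] at h0
    have h1 := congrArg (· ^ e) h0
    simp only [conj_pow, hpow] at h1
    have hw : (b'.out : Γ)⁻¹ * b.out ∈ C := by
      refine hsC _ (G.mul_mem (G.inv_mem b'.out.2) b.out.2) ?_
      calc s * ((b'.out : Γ)⁻¹ * b.out)
          = (b'.out : Γ)⁻¹ * ((b'.out : Γ) * s * (b'.out : Γ)⁻¹) * b.out := by group
        _ = (b'.out : Γ)⁻¹ * ((b.out : Γ) * s * (b.out : Γ)⁻¹) * b.out := by rw [h1]
        _ = (b'.out : Γ)⁻¹ * b.out * s := by group
    have hbb : b' = b := by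
      rw [← QuotientGroup.out_eq' b', ← QuotientGroup.out_eq' b]
      exact QuotientGroup.eq.2 (Subgroup.mem_subgroupOf.2 hw)
    subst hbb
    exact Prod.ext rfl (Subtype.ext (mul_left_cancel (mul_left_cancel (mul_right_cancel h0))))
  have hcard : Fintype.card ((G ⧸ C') × C) = Fintype.card G := by
    simp only [← Nat.card_eq_fintype_card, Nat.card_prod]
    rw [← Nat.card_congr (Subgroup.subgroupOfEquivOfLe H.le).toEquiv]
    exact (Subgroup.card_eq_card_quotient_mul_card_subgroup C').symm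
  have hbij : Function.Bijective Φ := (Fintype.bijective_iff_injective_and_card Φ).2 ⟨hinj, hcard⟩
  rw [← Fintype.sum_bijective Φ hbij _ _ (fun _ => rfl), Fintype.sum_prod_type,
    Finset.sum_congr rfl fun b _ => Finset.sum_congr rfl fun (c : C) _ =>
      show f (s * (Φ (b, c) : Γ)) = f (s * (c : Γ)) by rw [hΦ]; exact hf _ _,
    Finset.sum_const, Finset.card_univ, nsmul_eq_mul, ← Nat.card_eq_fintype_card,
    ← Subgroup.index_eq_card, ← mul_assoc]
  congr 1
  have h1 := C'.card_mul_index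
  rw [Nat.card_congr (Subgroup.subgroupOfEquivOfLe H.le).toEquiv] at h1
  rw [← h1, Nat.cast_mul]
  have : (C'.index : ℂ) ≠ 0 := Nat.cast_ne_zero.2 Subgroup.index_ne_zero_of_finite
  field_simp

theorem inner_eq_coInner [Fintype G] [Fintype C] {α α' : Γ → ℂ}
    (hα : IsIrrCharacter Γ α) (hα' : IsIrrCharacter Γ α') {s : Γ} (hs : s ∈ S)
    (hsC : ∀ g ∈ G, s * g = g * s → g ∈ C) :
    classInner (fun c : C => α (c * s)) (fun c : C => α' (c * s)) = coInner G.subtype α α' s := by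
  have h := H.sum_coset hs hsC (fun z => α z * conj (α' z)) (fun z w => by
    simp only [isClassFunction_of_isIrr hα z w, isClassFunction_of_isIrr hα' z w])
  rw [coInner, classInner]
  refine (congrArg _ (Finset.sum_congr rfl fun c _ => ?_)).trans h
  rw [show s * (c : Γ) = c * s from (H.commute c.2 hs).eq.symm]

theorem inner_self [Fintype C] {χ : G → ℂ} (hχ : IsIrrCharacter G χ) {α : Γ → ℂ}
    (hα : IsIrrCharacter Γ α) (ha : ∀ g : G, α g = χ g) {s : Γ} (hs : s ∈ S)
    (hsC : ∀ g ∈ G, s * g = g * s → g ∈ C) :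
    classInner (fun c : C => α (c * s)) (fun c : C => α (c * s)) = 1 := by
  haveI := H.normal
  haveI := H.cyclic_quotient
  letI : CommGroup (Γ ⧸ G) := IsCyclic.commGroup
  have := Fintype.ofFinite G
  rw [H.inner_eq_coInner hα hα hs hsC]
  exact coInner_self G.subtype (QuotientGroup.mk' G) G.subtype_injective
    (QuotientGroup.mk'_surjective G) (by rw [QuotientGroup.ker_mk', Subgroup.range_subtype]) hα
    (by rw [show α ∘ G.subtype = χ from funext ha]; exact hχ) s

theorem inner_ne [Fintype C] {χ χ' : G → ℂ} {α α' : Γ → ℂ}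
    (hα : IsIrrCharacter Γ α) (hα' : IsIrrCharacter Γ α') (ha : ∀ g : G, α g = χ g)
    (ha' : ∀ g : G, α' g = χ' g) (hne : χ ≠ χ') {s : Γ} (hs : s ∈ S)
    (hsC : ∀ g ∈ G, s * g = g * s → g ∈ C) :
    classInner (fun c : C => α (c * s)) (fun c : C => α' (c * s)) = 0 := by
  haveI := H.normal
  haveI := H.cyclic_quotient
  letI : CommGroup (Γ ⧸ G) := IsCyclic.commGroup
  have := Fintype.ofFinite G
  rw [H.inner_eq_coInner hα hα' hs hsC]
  exact coInner_ne G.subtype (QuotientGroup.mk' G) G.subtype_injective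
    (QuotientGroup.mk'_surjective G) (by rw [QuotientGroup.ker_mk', Subgroup.range_subtype]) hα hα'
    (fun e => hne ((funext ha).symm.trans (e.trans (funext ha')))) s

theorem mem_C_of_gen {s : Γ} (hs : Subgroup.zpowers s = S) :
    ∀ g ∈ G, s * g = g * s → g ∈ C := fun g hg h => H.mem_C.mpr ⟨hg, fun t ht => by
  obtain ⟨i, rfl⟩ := Subgroup.mem_zpowers_iff.mp (hs ▸ ht)
  exact ((show Commute s g from h).zpow_left i).eq⟩

/-- The coefficient of `β` as a function of the element of `S`. -/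
theorem exists_coeff [Fintype C] [Fintype (S →* ℂˣ)] {α : Γ → ℂ} (hα : IsCharacter Γ α)
    (β : IrrCharacter C) :
    ∃ n : (S →* ℂˣ) → ℕ, ∀ x : S,
      classInner (fun c : C => α (c * x)) (β : C → ℂ) = ∑ l, (n l : ℂ) * (l x : ℂ) := by
  haveI := H.cyc
  letI : CommGroup S := IsCyclic.commGroup
  let j : C × S →* Γ :=
    { toFun := fun z => (z.1 : Γ) * z.2
      map_one' := by simp
      map_mul' := fun z w => by
        simp only [Prod.fst_mul, Prod.snd_mul, Subgroup.coe_mul]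
        exact Commute.mul_mul_mul_comm (H.commute w.1.2 z.2.2) _ _ }
  obtain ⟨n, hn⟩ := exists_coInner_eq (N := C) (A := S) (MonoidHom.inl C S) (MonoidHom.snd C S)
    (fun a b h => (Prod.mk.inj h).1) (fun x => ⟨(1, x), rfl⟩)
    (by
      ext z
      exact ⟨fun h => ⟨z.1, Prod.ext rfl (MonoidHom.mem_ker.mp h).symm⟩, fun ⟨c, hc⟩ => hc ▸ rfl⟩)
    (isCharacter_comp hα j) (isCharacter_comp (isCharacter_of_isIrr β.2) (MonoidHom.fst C S))
  refine ⟨n, fun x => ?_⟩
  rw [← show ((MonoidHom.snd C S) (1, x)) = x from rfl, ← hn]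
  simp [coInner, classInner, j]

theorem isClassFunction_value {α : Γ → ℂ} (hα : IsClassFunction Γ α) {s : Γ} (hs : s ∈ S) :
    IsClassFunction C fun c : C => α (c * s) := by
  intro c d
  show α (((d * c * d⁻¹ : C) : Γ) * s) = α (c * s)
  rw [← hα ((c : Γ) * s) d]
  congr 1
  simp only [Subgroup.coe_mul, Subgroup.coe_inv, mul_assoc]
  rw [(H.commute (C.inv_mem d.2) hs).eq]

/-- The values of a canonical extension on `C` times a generator. -/
theorem exists_signed_irr [Fintype C] {χ : G → ℂ} (hχ : IsIrrCharacter G χ) {α : Γ → ℂ}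
    (hα : IsIrrCharacter Γ α) (ha : ∀ g : G, α g = χ g) (hd : (detOrder α).Coprime (Nat.card S))
    {s : Γ} (hs : Subgroup.zpowers s = S) :
    ∃ (β : IrrCharacter C) (ε : ℤ), (ε = 1 ∨ ε = -1) ∧
      ∀ c : C, α (c * s) = (ε : ℂ) * (β : C → ℂ) c := by
  haveI := H.cyc
  letI : CommGroup S := IsCyclic.commGroup
  have := finite_linearHom S
  have := Fintype.ofFinite (S →* ℂˣ)
  have hsS : s ∈ S := hs ▸ Subgroup.mem_zpowers s
  have hcl := H.isClassFunction_value (isClassFunction_of_isIrr hα) hsS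
  have hint : ∀ β : IrrCharacter C, ∃ m : ℤ, classInner (fun c : C => α (c * s)) (β : C → ℂ) = (m : ℂ) := by
    intro β
    obtain ⟨n, hn⟩ := H.exists_coeff (isCharacter_of_isIrr hα) β
    have hroot : ∀ l : S →* ℂˣ, (l ⟨s, hsS⟩ : ℂ) ^ Nat.card S = 1 := fun l => by
      rw [← Units.val_pow_eq_pow_val, ← map_pow, pow_card_eq_one', map_one, Units.val_one]
    rw [show classInner (fun c : C => α (c * s)) (β : C → ℂ) = _ from hn ⟨s, hsS⟩]
    refine CharGalois.exists_int_of_fixed (IsIntegral.sum _ fun l _ => IsIntegral.mul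
      (isIntegral_algebraMap (x := (n l : ℤ))) (IsIntegral.of_pow (Nat.card_pos (α := S))
        (by rw [hroot]; exact isIntegral_one))) fun σ => ?_
    obtain ⟨k, hk, hσ⟩ := CharGalois.exists_pow_of_aut (n := Nat.card S) Nat.card_pos σ
    have e : σ (∑ l, (n l : ℂ) * (l ⟨s, hsS⟩ : ℂ)) =
        ∑ l, (n l : ℂ) * (l (⟨s, hsS⟩ ^ k) : ℂ) := by
      rw [map_sum]
      exact Finset.sum_congr rfl fun l _ => by
        rw [map_mul, map_natCast, hσ _ (hroot l), map_pow, Units.val_pow_eq_pow_val]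
    rw [e, ← hn, ← hn]
    simp only [SubgroupClass.coe_pow]
    exact congrArg (classInner · _) (funext fun c => H.value_gen hχ hα ha hd hs hk c.2)
  choose m hm using hint
  have hnorm : ∑ β : IrrCharacter C, m β * m β = 1 := by
    have h := classInner_eq_sum (φ := fun c : C => α (c * s)) hcl
    rw [H.inner_self hχ hα ha hsS (H.mem_C_of_gen hs)] at h
    simp only [hm, map_intCast] at h
    exact_mod_cast h.symm
  obtain ⟨β, hβ⟩ : ∃ β, m β ≠ 0 := by
    by_contra! hc
    simp [hc] at hnorm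
  have hsplit := Finset.add_sum_erase Finset.univ (fun γ => m γ * m γ) (Finset.mem_univ β)
  have hrest : 0 ≤ ∑ γ ∈ Finset.univ.erase β, m γ * m γ :=
    Finset.sum_nonneg fun γ _ => mul_self_nonneg (m γ)
  have hpos : 0 < m β * m β := mul_self_pos.mpr hβ
  have hone : m β * m β = 1 := by linarith
  have hz : ∀ γ, γ ≠ β → m γ = 0 := fun γ hγ => mul_self_eq_zero.mp
    ((Finset.sum_eq_zero_iff_of_nonneg fun γ _ => mul_self_nonneg (m γ)).mp (by linarith) γ
      (Finset.mem_erase.mpr ⟨hγ, Finset.mem_univ γ⟩))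
  refine ⟨β, m β, mul_self_eq_one_iff.mp hone, fun c => ?_⟩
  have h := congrFun (eq_sum_classInner_smul hcl) c
  rw [h, Finset.sum_apply, Finset.sum_eq_single β (fun γ _ hγ => by simp [hm, hz γ hγ]) (by simp)]
  simp [hm]

theorem constituent [Fintype C] {χ : G → ℂ} {α : Γ → ℂ} (hα : IsIrrCharacter Γ α)
    (ha : ∀ g : G, α g = χ g) {s : Γ} (hs : s ∈ S) {β : IrrCharacter C} {ε : ℤ}
    (hε : ε = 1 ∨ ε = -1) (hval : ∀ c : C, α (c * s) = (ε : ℂ) * (β : C → ℂ) c) :
    classInner (fun c : C => χ ⟨c, H.le c.2⟩) (β : C → ℂ) ≠ 0 := by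
  haveI := H.cyc
  letI : CommGroup S := IsCyclic.commGroup
  have := finite_linearHom S
  have := Fintype.ofFinite (S →* ℂˣ)
  obtain ⟨n, hn⟩ := H.exists_coeff (isCharacter_of_isIrr hα) β
  intro h0
  have h1 := hn 1
  rw [show (fun c : C => α (c * ((1 : S) : Γ))) = fun c : C => χ ⟨c, H.le c.2⟩ from
    funext fun c => by rw [OneMemClass.coe_one, mul_one, ← ha], h0] at h1
  simp only [map_one, Units.val_one, mul_one] at h1
  have hz : ∀ l, n l = 0 := fun l => by
    have h2 : ((∑ l, n l : ℕ) : ℂ) = 0 := by push_cast; exact h1.symm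
    exact (Finset.sum_eq_zero_iff.mp (Nat.cast_eq_zero.mp h2)) l (Finset.mem_univ l)
  have h3 := hn ⟨s, hs⟩
  simp only [hz, Nat.cast_zero, zero_mul, Finset.sum_const_zero] at h3
  rw [show (fun c : C => α (c * s)) = (ε : ℂ) • (β : C → ℂ) from funext hval, classInner_smul_left,
    classInner_irr_self β.2, mul_one] at h3
  rcases hε with rfl | rfl <;> simp at h3

theorem irr_eq_of_value [Fintype C] {α : Γ → ℂ} {s : Γ} {β β' : IrrCharacter C} {ε ε' : ℤ}
    (hε : ε = 1 ∨ ε = -1) (h : ∀ c : C, α (c * s) = (ε : ℂ) * (β : C → ℂ) c)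
    (h' : ∀ c : C, α (c * s) = (ε' : ℂ) * (β' : C → ℂ) c) : β = β' ∧ ε = ε' := by
  have e : (ε : ℂ) • (β : C → ℂ) = (ε' : ℂ) • (β' : C → ℂ) :=
    funext fun c => (h c).symm.trans (h' c)
  have h1 := congrArg (classInner · (β : C → ℂ)) e
  simp only [classInner_smul_left, classInner_irr_self β.2, mul_one] at h1
  by_cases hb : β' = β
  · subst hb
    rw [classInner_irr_self β'.2, mul_one] at h1
    exact ⟨rfl, by exact_mod_cast h1⟩
  · rw [classInner_irr_ne β'.2 β.2 (fun e => hb (Subtype.ext e)), mul_zero] at h1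
    rcases hε with rfl | rfl <;> simp at h1

theorem injective_value [Fintype C] {χ χ' : G → ℂ} {α α' : Γ → ℂ} (hα : IsIrrCharacter Γ α)
    (hα' : IsIrrCharacter Γ α') (ha : ∀ g : G, α g = χ g) (ha' : ∀ g : G, α' g = χ' g) {s : Γ}
    (hs : Subgroup.zpowers s = S) {β : IrrCharacter C} {ε ε' : ℤ} (hε : ε = 1 ∨ ε = -1)
    (hε' : ε' = 1 ∨ ε' = -1) (h : ∀ c : C, α (c * s) = (ε : ℂ) * (β : C → ℂ) c)
    (h' : ∀ c : C, α' (c * s) = (ε' : ℂ) * (β : C → ℂ) c) : χ = χ' := by
  by_contra hne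
  have h0 := H.inner_ne hα hα' ha ha' hne (hs ▸ Subgroup.mem_zpowers s) (H.mem_C_of_gen hs)
  rw [show (fun c : C => α (c * s)) = (ε : ℂ) • (β : C → ℂ) from funext h,
    show (fun c : C => α' (c * s)) = (ε' : ℂ) • (β : C → ℂ) from funext h', classInner_smul_left,
    classInner_smul_right, classInner_irr_self β.2] at h0
  rcases hε with rfl | rfl <;> rcases hε' with rfl | rfl <;> simp at h0

theorem card_irr_C_le :
    Nat.card (IrrCharacter C) ≤ Nat.card {χ : IrrCharacter G // SInv G S (χ : G → ℂ)} := by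
  have hGn := H.normal
  haveI := H.cyc
  letI : CommGroup S := IsCyclic.commGroup
  have e := card_inv_irr_eq_of_solvable _ (conjHom H.norm) rfl
    (Group.isSolvable_of_comm fun a b => mul_comm a b) H.cop
  rw [show Nat.card {χ : IrrCharacter G // SInv G S (χ : G → ℂ)} = _ from
    Nat.card_congr (Equiv.subtypeEquivRight fun χ => (inv_conjHom_iff H.norm _).symm), e,
    card_irr_eq_card_conjClasses]
  have hinv : ∀ c : C, InvClass (conjHom H.norm) (ConjClasses.mk (⟨c, H.le c.2⟩ : G)) := by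
    intro c x k hk
    obtain ⟨d, rfl⟩ := isConj_iff.mp (ConjClasses.mk_eq_mk_iff_isConj.mp hk.symm)
    rw [map_mul, map_mul, map_inv, ConjClasses.mk_eq_mk_iff_isConj,
      show conjHom H.norm x ⟨c, H.le c.2⟩ = ⟨c, H.le c.2⟩ from Subtype.ext (by
        rw [coe_conjHom, (H.mem_C.mp c.2).2 x x.2, mul_inv_cancel_right])]
    exact (isConj_iff.mpr ⟨_, rfl⟩).symm
  let g0 : ConjClasses C → {c : ConjClasses G // InvClass (conjHom H.norm) c} := fun c =>
    ⟨ConjClasses.map (Subgroup.inclusion H.le) c, by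
      obtain ⟨c, rfl⟩ := ConjClasses.mk_surjective c
      exact hinv c⟩
  refine Nat.card_le_card_of_injective g0 fun c d h => ?_
  obtain ⟨c, rfl⟩ := ConjClasses.mk_surjective c
  obtain ⟨d, rfl⟩ := ConjClasses.mk_surjective d
  obtain ⟨k, hk⟩ := isConj_iff.mp (ConjClasses.mk_eq_mk_iff_isConj.mp (congrArg Subtype.val h))
  obtain ⟨t, ht⟩ := IsCyclic.exists_generator (α := S)
  have htc : Nat.Coprime (orderOf (t : Γ)) (Nat.card G) := by
    rw [Subgroup.orderOf_coe]
    exact H.cop.symm.coprime_dvd_left (orderOf_dvd_natCard t)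
  obtain ⟨w, hwG, hwt, hw⟩ := CharClifford.exists_centralizer_conj_of_commute G htc k.2
    (H.commute c.2 t.2).symm (H.commute d.2 t.2).symm (congrArg Subtype.val hk)
  have hwC : w ∈ C := H.mem_C.mpr ⟨hwG, fun x hx => by
    obtain ⟨i, hi⟩ := Subgroup.mem_zpowers_iff.mp (ht ⟨x, hx⟩)
    rw [show x = (t : Γ) ^ i from (congrArg Subtype.val hi).symm.trans (by simp)]
    exact ((show Commute (t : Γ) w from hwt).zpow_left i).eq⟩
  exact ConjClasses.mk_eq_mk_iff_isConj.mpr (isConj_iff.mpr ⟨⟨w, hwC⟩, Subtype.ext hw⟩)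

/-- Every irreducible character of `C` arises. -/
theorem surjective_value [Fintype C] (β : IrrCharacter C) :
    ∃ (χ : IrrCharacter G) (α : IrrCharacter Γ) (ε : ℤ), SInv G S (χ : G → ℂ) ∧
      (∀ g : G, (α : Γ → ℂ) g = (χ : G → ℂ) g) ∧ (detOrder (α : Γ → ℂ)).Coprime (Nat.card S) ∧
      (ε = 1 ∨ ε = -1) ∧
      ∀ c : C, ∀ s : Γ, Subgroup.zpowers s = S → (α : Γ → ℂ) (c * s) = (ε : ℂ) * (β : C → ℂ) c := by
  obtain ⟨t, ht⟩ : ∃ t : Γ, Subgroup.zpowers t = S := (Subgroup.isCyclic_iff_exists_zpowers_eq_top S).mp H.cyc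
  choose α hα ha hd using fun χ : {χ : IrrCharacter G // SInv G S (χ : G → ℂ)} =>
    H.exists_canonical χ.1.2 χ.2
  choose b ε hε hval using fun χ => H.exists_signed_irr χ.1.2 (hα χ) (ha χ) (hd χ) ht
  have hinj : Function.Injective b := fun χ ψ e => Subtype.ext (Subtype.ext
    (H.injective_value (hα χ) (hα ψ) (ha χ) (ha ψ) ht (hε χ) (hε ψ) (hval χ) (e ▸ hval ψ)))
  have hbij := hinj.bijective_of_nat_card_le (H.card_irr_C_le)
  obtain ⟨χ, rfl⟩ := hbij.2 β
  refine ⟨χ.1, ⟨α χ, hα χ⟩, ε χ, χ.2, ha χ, hd χ, hε χ, fun c s hs => ?_⟩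
  obtain ⟨k, hk, rfl⟩ := H.gen_pow ht hs
  rw [← hval χ c]
  exact H.value_gen χ.1.2 (hα χ) (ha χ) (hd χ) ht hk c.2

end CycSetup

end Cfsg.Agent.Lib.Glauberman
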