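import Cfsg.Agent.Lib.Glauberman.Layers
import Cfsg.Agent.Lib.Glauberman.Subgroup

/-!
# Layers inside an ambient group
-/

set_option autoImplicit false
set_option linter.unusedSectionVars false

namespace Cfsg.Agent.Lib.Glauberman

open Cfsg Cfsg.Agent.Lib.Char

universe u

variable {Γ : Type u} [Group Γ] [Finite Γ] {G S N : Subgroup Γ}
  (h : ∀ s ∈ S, ∀ g ∈ G, s * g * s⁻¹ ∈ G) (hNS : ∀ s ∈ S, ∀ n ∈ N, s * n * s⁻¹ ∈ N) (hNG : N ≤ G)

include hNS in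
theorem stable_subgroupOf : ∀ x : S, ∀ k ∈ N.subgroupOf G, conjHom h x k ∈ N.subgroupOf G :=
  fun x _ hk => hNS x x.2 _ hk

theorem inv_irrSub_iff (θ : IrrCharacter N) :
    Inv (restrAut (conjHom h) (N.subgroupOf G) (stable_subgroupOf h hNS))
        ((irrSub hNG θ) : N.subgroupOf G → ℂ) ↔
      ∀ s ∈ S, ∀ g g' : N, (g' : Γ) = s * g * s⁻¹ → (θ : N → ℂ) g' = (θ : N → ℂ) g := by
  refine ⟨fun hi s hs g g' e => ?_, fun hi s c => hi s s.2 _ _ rfl⟩
  have h1 := hi ⟨s, hs⟩ ((Subgroup.subgroupOfEquivOfLe hNG).symm g)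
  simp only [irrSub, Equiv.coe_fn_mk, MulEquiv.apply_symm_apply] at h1
  rw [← h1]
  exact congrArg (θ : N → ℂ) (Subtype.ext e)

theorem classInner_irrSub [Fintype N] [Fintype (N.subgroupOf G)] (χ : IrrCharacter G) (θ : IrrCharacter N) :
    classInner (fun n : N => (χ : G → ℂ) ⟨n, hNG n.2⟩) (θ : N → ℂ) =
      classInner (fun n : N.subgroupOf G => (χ : G → ℂ) n) ((irrSub hNG θ) : N.subgroupOf G → ℂ) :=
  (classInner_equiv (Subgroup.subgroupOfEquivOfLe hNG)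
    (fun n : N => (χ : G → ℂ) ⟨n, hNG n.2⟩) (θ : N → ℂ)).symm

end Cfsg.Agent.Lib.Glauberman
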